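import Mathlib
import Cfsg.Agent.Lib.Helper49.HUP.Defs

/-!
# HUP (S3361): package [SEMIU]

A group acting regularly on the non-zero vectors with an irreducible normal cyclic subgroup `A`
acts semilinearly over the field generated by `A`.
-/

set_option autoImplicit false

namespace Cfsg.Agent.Lib.Helper93.HUP

open Cfsg.Agent.Lib.Helper49.HUP

universe u v

section
variable {q : ℕ} [Fact q.Prime] {V : Type u} [AddCommGroup V] [Module (ZMod q) V]
  {G : Type v} [Group G]

/-- A finite commutative subalgebra `S` of `End V` all of whose non-zero elements are injective,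
such that `V = S v₀` and which is normalised by `ρ G`, gives a semilinear structure. -/
theorem semiu_of_subalgebra (ρ : G →* (V ≃ₗ[ZMod q] V))
    (S : Subalgebra (ZMod q) (Module.End (ZMod q) V)) [Finite S]
    (hcomm : ∀ f ∈ S, ∀ g ∈ S, f * g = g * f)
    (hinj : ∀ f ∈ S, f ≠ 0 → Function.Injective f)
    (v₀ : V) (hv₀ : v₀ ≠ 0) (hsurj : ∀ w : V, ∃ f ∈ S, f v₀ = w)
    (hconj : ∀ g : G, ∀ f ∈ S, (ρ g).conjAlgEquiv (ZMod q) f ∈ S) : SemiU ρ := by
  classical
  -- `S` is a field
  have hF : IsField S := by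
    refine ⟨⟨0, 1, ?_⟩, ?_, ?_⟩
    · intro h
      have h1 : ((0 : S) : Module.End (ZMod q) V) v₀ = ((1 : S) : Module.End (ZMod q) V) v₀ := by
        rw [h]
      simp at h1
      exact hv₀ h1.symm
    · intro f g
      exact Subtype.ext (hcomm f.1 f.2 g.1 g.2)
    · intro f hf
      have hf1 : (f : Module.End (ZMod q) V) ≠ 0 := fun h => hf (Subtype.ext h)
      have hfi := hinj f.1 f.2 hf1
      have hmi : Function.Injective (fun g : S => f * g) := by
        intro g g' hgg
        apply Subtype.ext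
        apply LinearMap.ext
        intro v
        apply hfi
        have := congrArg (fun z : S => (z : Module.End (ZMod q) V) v) hgg
        simpa using this
      obtain ⟨g, hg⟩ := (Finite.injective_iff_surjective.1 hmi) 1
      exact ⟨g, hg⟩
  let _ : Field S := hF.toField
  -- the bijection `S → V`
  let φ : S →+ V :=
    { toFun := fun f => (f : Module.End (ZMod q) V) v₀
      map_zero' := by simp
      map_add' := by intro a b; simp }
  have hφi : Function.Injective φ := by
    intro f f' hff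
    by_contra hne
    have hd : ((f - f' : S) : Module.End (ZMod q) V) ≠ 0 := by
      intro h
      apply hne
      have : f - f' = 0 := Subtype.ext h
      exact sub_eq_zero.1 this
    have hdi := hinj _ (f - f').2 hd
    have h0 : ((f - f' : S) : Module.End (ZMod q) V) v₀ = 0 := by
      have : (f : Module.End (ZMod q) V) v₀ = (f' : Module.End (ZMod q) V) v₀ := hff
      simp [this]
    exact hv₀ (hdi (by rw [h0, map_zero]))
  have hφs : Function.Surjective φ := by
    intro w
    obtain ⟨f, hf, hfw⟩ := hsurj w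
    exact ⟨⟨f, hf⟩, hfw⟩
  let e₀ : S ≃+ V := AddEquiv.ofBijective φ ⟨hφi, hφs⟩
  have he₀ : ∀ f : S, e₀ f = (f : Module.End (ZMod q) V) v₀ := fun f => rfl
  refine ⟨S, inferInstance, inferInstance, e₀.symm, fun g => ?_⟩
  -- the automorphism induced by `g`
  have hsymm : ∀ f ∈ S, ((ρ g).conjAlgEquiv (ZMod q)).symm f ∈ S := by
    intro f hf
    have h := hconj g⁻¹ f hf
    rw [map_inv] at h
    exact h
  let σ : S ≃+* S :=
    { toFun := fun f => ⟨(ρ g).conjAlgEquiv (ZMod q) f, hconj g f f.2⟩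
      invFun := fun f => ⟨((ρ g).conjAlgEquiv (ZMod q)).symm f, hsymm f f.2⟩
      left_inv := fun f => Subtype.ext (AlgEquiv.symm_apply_apply _ _)
      right_inv := fun f => Subtype.ext (AlgEquiv.apply_symm_apply _ _)
      map_mul' := fun f f' => Subtype.ext (map_mul ((ρ g).conjAlgEquiv (ZMod q)) _ _)
      map_add' := fun f f' => Subtype.ext (map_add ((ρ g).conjAlgEquiv (ZMod q)) _ _) }
  have hσ : ∀ f : S, ((σ f : S) : Module.End (ZMod q) V) = (ρ g).conjAlgEquiv (ZMod q) f :=
    fun f => rfl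
  refine ⟨e₀.symm (ρ g v₀), σ, fun v => ?_⟩
  apply e₀.injective
  rw [AddEquiv.apply_symm_apply]
  have hmul : e₀.symm (ρ g v₀) * σ (e₀.symm v) = σ (e₀.symm v) * e₀.symm (ρ g v₀) :=
    Subtype.ext (hcomm _ (e₀.symm (ρ g v₀)).2 _ (σ (e₀.symm v)).2)
  rw [hmul, he₀]
  have h1 : ((σ (e₀.symm v) * e₀.symm (ρ g v₀) : S) : Module.End (ZMod q) V) v₀ =
      ((σ (e₀.symm v) : S) : Module.End (ZMod q) V)
        (((e₀.symm (ρ g v₀) : S) : Module.End (ZMod q) V) v₀) := rfl
  rw [h1, ← he₀ (e₀.symm (ρ g v₀)), AddEquiv.apply_symm_apply, hσ,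
    LinearEquiv.conjAlgEquiv_apply]
  simp only [LinearMap.coe_comp, LinearEquiv.coe_coe, Function.comp_apply,
    LinearEquiv.symm_apply_apply]
  rw [← he₀ (e₀.symm v), AddEquiv.apply_symm_apply]

end

/-- General form (no regularity or transitivity hypothesis, `G` arbitrary): if a normal cyclic
subgroup `A` acts irreducibly on the finite nontrivial `ZMod q`-module `V`, then `G` acts
semilinearly over the field generated by `A`. -/
theorem semiU_of_normal_cyclic_irr {q : ℕ} [Fact q.Prime] {V : Type u} [AddCommGroup V]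
    [Module (ZMod q) V] [Finite V] [Nontrivial V] {G : Type v} [Group G]
    (ρ : G →* (V ≃ₗ[ZMod q] V)) (A : Subgroup G) (hAn : A.Normal) (hAc : IsCyclic A)
    (hirr : Irr ρ A) : SemiU ρ := by
  classical
  let gens : Set (Module.End (ZMod q) V) :=
    Set.range fun a : A => ((ρ (a : G) : V ≃ₗ[ZMod q] V) : Module.End (ZMod q) V)
  let S : Subalgebra (ZMod q) (Module.End (ZMod q) V) := Algebra.adjoin (ZMod q) gens
  have hgen_mem : ∀ a ∈ A, ((ρ a : V ≃ₗ[ZMod q] V) : Module.End (ZMod q) V) ∈ S :=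
    fun a ha => Algebra.subset_adjoin ⟨⟨a, ha⟩, rfl⟩
  have : Finite (Module.End (ZMod q) V) :=
    Finite.of_injective (fun f : Module.End (ZMod q) V => (f : V → V)) DFunLike.coe_injective
  have : Finite S := Finite.of_injective (fun f : S => (f : Module.End (ZMod q) V))
    Subtype.val_injective
  -- the generators commute
  have hAcomm : ∀ a ∈ A, ∀ b ∈ A, a * b = b * a := by
    intro a ha b hb
    obtain ⟨c, hc⟩ := hAc
    obtain ⟨m, hm⟩ := hc ⟨a, ha⟩
    obtain ⟨n, hn⟩ := hc ⟨b, hb⟩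
    have ha' : a = ((c ^ m : A) : G) := (congrArg Subtype.val hm).symm
    have hb' : b = ((c ^ n : A) : G) := (congrArg Subtype.val hn).symm
    rw [ha', hb', ← Subgroup.coe_mul, ← Subgroup.coe_mul, ← zpow_add, ← zpow_add, add_comm]
  have hgc : ∀ x ∈ gens, ∀ y ∈ gens, x * y = y * x := by
    rintro _ ⟨a, rfl⟩ _ ⟨b, rfl⟩
    apply LinearMap.ext
    intro v
    show ρ a (ρ b v) = ρ b (ρ a v)
    rw [← LinearEquiv.mul_apply, ← LinearEquiv.mul_apply, ← map_mul, ← map_mul,
      hAcomm a a.2 b b.2]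
  have hcomm : ∀ f ∈ S, ∀ g ∈ S, f * g = g * f := by
    intro f hf g hg
    have h1 : S ≤ Subalgebra.centralizer (ZMod q) gens :=
      Algebra.adjoin_le (fun x hx => (Subalgebra.mem_centralizer_iff (ZMod q)).2 fun y hy => hgc y hy x hx)
    have h2 : S ≤ Subalgebra.centralizer (ZMod q)
        (Subalgebra.centralizer (ZMod q) gens : Set (Module.End (ZMod q) V)) :=
      Algebra.adjoin_le (fun x hx => (Subalgebra.mem_centralizer_iff (ZMod q)).2 fun y hy =>
        ((Subalgebra.mem_centralizer_iff (ZMod q)).1 hy x hx).symm)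
    exact ((Subalgebra.mem_centralizer_iff (ZMod q)).1 (h2 hg) f (h1 hf))
  have hinj : ∀ f ∈ S, f ≠ 0 → Function.Injective f := by
    intro f hf hf0
    have hker : ∀ a ∈ A, ∀ v ∈ LinearMap.ker f, ρ a v ∈ LinearMap.ker f := by
      intro a ha v hv
      rw [LinearMap.mem_ker] at hv ⊢
      have h := congrArg (fun z : Module.End (ZMod q) V => z v) (hcomm f hf _ (hgen_mem a ha))
      simp only [Module.End.mul_apply, LinearEquiv.coe_coe] at h
      rw [h, hv, map_zero]
    rcases hirr _ hker with h | h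
    · exact LinearMap.ker_eq_bot.1 h
    · exact absurd (LinearMap.ker_eq_top.1 h) hf0
  obtain ⟨v₀, hv₀⟩ := exists_ne (0 : V)
  have hsurj : ∀ w : V, ∃ f ∈ S, f v₀ = w := by
    let W : Submodule (ZMod q) V :=
      (Subalgebra.toSubmodule S).map (LinearMap.applyₗ v₀ : Module.End (ZMod q) V →ₗ[ZMod q] V)
    have hW : ∀ w, w ∈ W ↔ ∃ f ∈ S, f v₀ = w := by
      intro w
      constructor
      · rintro ⟨f, hf, rfl⟩
        exact ⟨f, hf, rfl⟩
      · rintro ⟨f, hf, rfl⟩
        exact ⟨f, hf, rfl⟩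
    have hWinv : ∀ a ∈ A, ∀ w ∈ W, ρ a w ∈ W := by
      intro a ha w hw
      obtain ⟨f, hf, rfl⟩ := (hW w).1 hw
      exact (hW _).2 ⟨_, S.mul_mem (hgen_mem a ha) hf, rfl⟩
    rcases hirr W hWinv with h | h
    · exfalso
      have : v₀ ∈ W := (hW v₀).2 ⟨1, S.one_mem, rfl⟩
      rw [h] at this
      exact hv₀ ((Submodule.mem_bot _).1 this)
    · intro w
      exact (hW w).1 (by rw [h]; exact Submodule.mem_top)
  have hconj : ∀ g : G, ∀ f ∈ S, (ρ g).conjAlgEquiv (ZMod q) f ∈ S := by
    intro g f hf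
    have h1 : S.map ((ρ g).conjAlgEquiv (ZMod q) : Module.End (ZMod q) V →ₐ[ZMod q] _) ≤ S := by
      rw [AlgHom.map_adjoin]
      apply Algebra.adjoin_le
      rintro _ ⟨_, ⟨a, rfl⟩, rfl⟩
      have h2 : (ρ g).conjAlgEquiv (ZMod q) ((ρ (a : G) : V ≃ₗ[ZMod q] V) : Module.End (ZMod q) V)
          = ((ρ (g * a * g⁻¹) : V ≃ₗ[ZMod q] V) : Module.End (ZMod q) V) := by
        apply LinearMap.ext
        intro v
        rw [map_mul, map_mul, map_inv]
        rfl
      show (ρ g).conjAlgEquiv (ZMod q) ((ρ (a : G) : V ≃ₗ[ZMod q] V) : Module.End (ZMod q) V) ∈ S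
      rw [h2]
      exact hgen_mem _ (hAn.conj_mem a a.2 g)
    exact h1 ⟨f, hf, rfl⟩
  exact semiu_of_subalgebra ρ S hcomm hinj v₀ hv₀ hsurj hconj

/-- [SEMIU] -/
theorem pkgSemiU : PkgSemiU.{u, v} := by
  intro q _ V _ _ _ _ G _ _ ρ _ A hAn hAc hirr
  exact semiU_of_normal_cyclic_irr ρ A hAn hAc hirr

end Cfsg.Agent.Lib.Helper93.HUP
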